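import Mathlib.GroupTheory.SpecificGroups.Alternating
import Mathlib.Tactic

set_option autoImplicit false

namespace Cfsg.Agent.Lib.JTwoPattern

open Equiv

lemma even_involution_fin_five : ∀ σ : Perm (Fin 5), σ * σ = 1 → σ ≠ 1 → Perm.sign σ = 1 →
    ∃ s : Perm (Fin 5), σ (s 0) = s 1 ∧ σ (s 2) = s 3 ∧ σ (s 4) = s 4 := by
  decide +kernel

lemma centralizer_double_transposition : ∀ ρ : Perm (Fin 5),
    ρ * (Equiv.swap 0 1 * Equiv.swap 2 3) = Equiv.swap 0 1 * Equiv.swap 2 3 * ρ → Perm.sign ρ = 1 →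
    ρ = 1 ∨ ρ = Equiv.swap 0 1 * Equiv.swap 2 3 ∨ (ρ 0 = 2 ∧ ρ 2 = 0) ∨ (ρ 0 = 3 ∧ ρ 2 = 1) := by
  decide +kernel

lemma isConj_involutions_alt_five : ∀ x y : alternatingGroup (Fin 5), x * x = 1 → x ≠ 1 → y * y = 1 → y ≠ 1 →
    ∃ g : alternatingGroup (Fin 5), g * x = y * g := by
  decide +kernel

lemma card_involutions_alt_five :
    Nat.card {x : alternatingGroup (Fin 5) // x * x = 1 ∧ x ≠ 1} = 15 := by
  rw [Nat.card_eq_fintype_card]; decide +kernel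

lemma card_pairs_alt_five :
    Nat.card {p : alternatingGroup (Fin 5) × alternatingGroup (Fin 5) //
      (p.1 * p.1 = 1 ∧ p.1 ≠ 1) ∧ p.2 * p.2 = 1 ∧ (p.1 = p.2 ∨ p.1 * p.2 ≠ p.2 * p.1)} = 195 := by
  rw [Nat.card_eq_fintype_card]; decide +kernel

lemma odd_orderOf_alt_five_aux : ∀ x b : alternatingGroup (Fin 5), x * x = 1 → x ≠ 1 → b * b = 1 →
    (((x * b) ^ 15 = 1 ↔ (x = b ∨ x * b ≠ b * x)) ∧ (x * b) ^ 30 = 1) := by
  decide +kernel

lemma odd_orderOf_alt_five {x b : alternatingGroup (Fin 5)} (hx : x * x = 1) (hx1 : x ≠ 1)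
    (hb : b * b = 1) : Odd (orderOf (x * b)) ↔ (x = b ∨ x * b ≠ b * x) := by
  obtain ⟨h, h30⟩ := odd_orderOf_alt_five_aux x b hx hx1 hb
  rw [← h]
  constructor
  · intro ho
    have h1 := orderOf_dvd_of_pow_eq_one h30
    apply orderOf_dvd_iff_pow_eq_one.mp
    exact (Nat.Coprime.dvd_of_dvd_mul_left (Nat.coprime_two_right.mpr ho) (show orderOf (x * b) ∣ 2 * 15 from h1))
  · intro ho
    exact Odd.of_dvd_nat (by decide) (orderOf_dvd_of_pow_eq_one ho)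

end Cfsg.Agent.Lib.JTwoPattern
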