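import Mathlib.GroupTheory.Perm.Cycle.Type
import Mathlib.GroupTheory.SpecificGroups.Alternating.Simple
import Mathlib.Tactic
import Cfsg.Agent.Lib.JTwoPattern.AltFive

/-!
Counting inside `2^{1+4}:A₅`: the pairs `(x, y)` of involutions with `x` in the normal extraspecial group,
`y` outside and the central involution a power of `xy`.
-/

set_option autoImplicit false
set_option linter.style.haveILetI false
set_option linter.unusedSectionVars false

namespace Cfsg.Agent.Lib.JTwoPattern

open scoped Classical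

variable {G : Type*} [Group G]

/-- The hypotheses on a group `QK` with `Q` extraspecial of order 32 and `K/K ∩ Q ≅ A₅`. -/
structure Setup (z : G) (Q K : Subgroup G) : Prop where
  zQ : z ∈ Q
  z2 : z * z = 1
  z1 : z ≠ 1
  zc : ∀ g ∈ Q, g * z = z * g
  zK : ∀ k ∈ K, k * z = z * k
  norm : ∀ k ∈ K, ∀ q ∈ Q, k * q * k⁻¹ ∈ Q
  cen : ∀ a ∈ Q, (∀ b ∈ Q, a * b = b * a) → a = 1 ∨ a = z
  sq : ∀ a ∈ Q, a * a = 1 ∨ a * a = z
  com : ∀ a ∈ Q, ∀ b ∈ Q, a * b = b * a ∨ a * b = b * a * z
  card : Nat.card Q = 32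
  quot : ∃ π : ↥K →* alternatingGroup (Fin 5), Function.Surjective π ∧ ∀ g : ↥K, π g = 1 ↔ (g : G) ∈ Q
  cq : ∀ g ∈ K, (∀ q ∈ Q, g * q = q * g) → g ∈ Q

namespace Setup

variable {z : G} {Q K : Subgroup G} (S : Setup z Q K)
include S

lemma mul_z_ne (a : G) : a * z ≠ a := fun h => S.z1 (mul_eq_left.mp h)

lemma zz (a : G) : a * z * z = a := by rw [mul_assoc, S.z2, mul_one]

/-- The commutation pattern of a product. -/
lemma comm_mul {a b x : G} (ha : a ∈ Q) (hb : b ∈ Q) (hx : x ∈ Q) :
    (a * b * x = x * (a * b)) ↔ ((a * x = x * a) ↔ (b * x = x * b)) := by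
  have hzx := S.zc x hx
  have hzb := S.zc b hb
  rcases S.com a ha x hx with h1 | h1 <;> rcases S.com b hb x hx with h2 | h2
  · exact iff_of_true (by rw [mul_assoc, h2, ← mul_assoc, h1, mul_assoc]) (iff_of_true h1 h2)
  · have e : a * b * x = x * (a * b) * z := by
      rw [mul_assoc a b x, h2, ← mul_assoc, ← mul_assoc, h1]; group
    rw [e]
    refine iff_of_false (S.mul_z_ne _) ?_
    intro h
    exact S.mul_z_ne _ (h2.symm.trans (h.mp h1))
  · have e : a * b * x = x * (a * b) * z := by
      rw [mul_assoc a b x, h2, ← mul_assoc, h1]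
      calc x * a * z * b = x * a * (z * b) := by group
        _ = x * (a * b) * z := by rw [← hzb]; group
    rw [e]
    refine iff_of_false (S.mul_z_ne _) ?_
    intro h
    exact S.mul_z_ne _ (h1.symm.trans (h.mpr h2))
  · refine iff_of_true ?_ (iff_of_false (fun h => S.mul_z_ne _ (h1.symm.trans h))
      (fun h => S.mul_z_ne _ (h2.symm.trans h)))
    calc a * b * x = a * (b * x) := mul_assoc _ _ _
      _ = a * x * b * z := by rw [h2]; group
      _ = x * a * (z * b) * z := by rw [h1]; group
      _ = x * (a * b) * z * z := by rw [← hzb]; group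
      _ = x * (a * b) := S.zz _

lemma comm_z {x : G} (hx : x ∈ Q) : z * x = x * z := (S.zc x hx).symm

lemma comm_mul_z {a x : G} (ha : a ∈ Q) (hx : x ∈ Q) : (a * z * x = x * (a * z)) ↔ (a * x = x * a) := by
  rw [S.comm_mul ha S.zQ hx, iff_true_right (S.comm_z hx)]

lemma sq_mul_z {x : G} (hx : x ∈ Q) : (x * z) * (x * z) = x * x := by
  calc (x * z) * (x * z) = x * (z * x) * z := by group
    _ = x * x * z * z := by rw [S.comm_z hx]; group
    _ = x * x := S.zz _

section count

variable [Fintype G]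

lemma card_square_roots :
    (Finset.univ.filter fun a : ↥Q => (a : G) * a = 1).card = 20 ∨
      (Finset.univ.filter fun a : ↥Q => (a : G) * a = 1).card = 12 := by
  let f : ↥Q → ℤ := fun a => if (a : G) * a = 1 then 1 else -1
  let χ : ↥Q → ↥Q → ℤ := fun a b => if (a : G) * b = b * a then 1 else -1
  have hf : ∀ a b : ↥Q, f a * f b = f (a * b) * χ a b := by
    intro a b
    have hz := S.z1
    have key : ((a * b : ↥Q) : G) * ((a * b : ↥Q) : G) =
        if (a : G) * b = b * a then ((a : G) * a) * ((b : G) * b) else ((a : G) * a) * ((b : G) * b) * z := by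
      rcases S.com b b.2 a a.2 with h | h
      · rw [if_pos h.symm, Subgroup.coe_mul]
        calc (a : G) * b * (a * b) = a * (b * a) * b := by group
          _ = _ := by rw [h]; group
      · rw [if_neg (fun h' => S.mul_z_ne _ (h.symm.trans h'.symm)), Subgroup.coe_mul]
        calc (a : G) * b * (a * b) = a * (b * a) * b := by group
          _ = a * a * b * (z * b) := by rw [h]; group
          _ = _ := by rw [← S.zc b b.2]; group
    simp only [f, χ, key]
    rcases S.sq a a.2 with h1 | h1 <;> rcases S.sq b b.2 with h2 | h2 <;>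
      by_cases h : (a : G) * b = b * a <;>
      simp [h1, h2, h, hz, S.z2]
  have hχ : ∀ a b : ↥Q, χ a b = χ a (a * b) := by
    intro a b
    simp only [χ, Subgroup.coe_mul]
    refine if_congr ?_ rfl rfl
    rw [mul_assoc (a : G) (b : G) (a : G), mul_left_cancel_iff]
  have hinner : ∀ u : ↥Q, (∑ a : ↥Q, χ a u) = if u = 1 ∨ (u : G) = z then 32 else 0 := by
    intro u
    by_cases hu : u = 1 ∨ (u : G) = z
    · have h1 : ∀ a : ↥Q, χ a u = 1 := by
        intro a
        simp only [χ]
        rcases hu with rfl | h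
        · simp
        · rw [h, if_pos (S.zc a a.2)]
      rw [if_pos hu, Finset.sum_congr rfl fun a _ => h1 a, Finset.sum_const, Finset.card_univ,
        ← Nat.card_eq_fintype_card, S.card]
      norm_num
    · rw [if_neg hu]
      obtain ⟨c, hcQ, hc⟩ : ∃ c ∈ Q, (u : G) * c ≠ c * u := by
        by_contra hne
        push Not at hne
        rcases S.cen u u.2 hne with h | h
        · exact hu (Or.inl (Subtype.ext h))
        · exact hu (Or.inr h)
      have hflip : ∀ a : ↥Q, χ (⟨c, hcQ⟩ * a) u = -χ a u := by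
        intro a
        simp only [χ, Subgroup.coe_mul]
        have := S.comm_mul hcQ a.2 u.2
        by_cases ha : (a : G) * u = u * a
        · rw [if_pos ha, if_neg (fun h => hc ((this.mp h).mpr ha).symm)]
        · rw [if_neg ha, if_pos (this.mpr (iff_of_false (fun h => hc h.symm) ha))]
          rfl
      have h2 : (∑ a : ↥Q, χ a u) = -(∑ a : ↥Q, χ a u) := by
        conv_lhs => rw [← Equiv.sum_comp (Equiv.mulLeft (⟨c, hcQ⟩ : ↥Q)) (fun a => χ a u)]
        rw [← Finset.sum_neg_distrib]
        exact Finset.sum_congr rfl fun a _ => hflip a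
      omega
  have hsum : (∑ a : ↥Q, f a) * (∑ a : ↥Q, f a) = 64 := by
    calc (∑ a : ↥Q, f a) * (∑ a : ↥Q, f a) = ∑ a : ↥Q, ∑ b : ↥Q, f (a * b) * χ a (a * b) := by
          rw [Finset.sum_mul_sum]
          exact Finset.sum_congr rfl fun a _ => Finset.sum_congr rfl fun b _ => by rw [hf, ← hχ]
      _ = ∑ a : ↥Q, ∑ u : ↥Q, f u * χ a u :=
          Finset.sum_congr rfl fun a _ => Equiv.sum_comp (Equiv.mulLeft a) (fun u => f u * χ a u)
      _ = ∑ u : ↥Q, f u * (if u = 1 ∨ (u : G) = z then 32 else 0) := by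
          rw [Finset.sum_comm]
          exact Finset.sum_congr rfl fun u _ => by rw [← Finset.mul_sum, hinner]
      _ = ∑ u ∈ ({1, ⟨z, S.zQ⟩} : Finset ↥Q), f u * (if u = 1 ∨ (u : G) = z then 32 else 0) := by
          refine (Finset.sum_subset (Finset.subset_univ _) ?_).symm
          intro u _ hu
          rw [if_neg, mul_zero]
          rintro (h | h)
          · exact hu (by simp [h])
          · exact hu (by simp [show u = ⟨z, S.zQ⟩ from Subtype.ext h])
      _ = 64 := by
          rw [Finset.sum_pair (fun h => S.z1 (congrArg Subtype.val h).symm)]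
          simp [f, S.z2]
  have hcount : (∑ a : ↥Q, f a) =
      2 * ((Finset.univ.filter fun a : ↥Q => (a : G) * a = 1).card : ℤ) - 32 := by
    have hc := Finset.card_filter_add_card_filter_not (s := (Finset.univ : Finset ↥Q))
      (fun a : ↥Q => (a : G) * a = 1)
    rw [Finset.card_univ, ← Nat.card_eq_fintype_card, S.card] at hc
    simp only [f, Finset.sum_ite, Finset.sum_const, nsmul_eq_mul, mul_one, mul_neg]
    omega
  rw [hcount] at hsum
  generalize hN : (Finset.univ.filter fun a : ↥Q => (a : G) * a = 1).card = N at hsum ⊢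
  have hN32 : N ≤ 32 := by
    rw [← hN]
    refine (Finset.card_filter_le _ _).trans ?_
    rw [Finset.card_univ, ← Nat.card_eq_fintype_card, S.card]
  interval_cases N <;> first | omega | (norm_num at hsum)

/-- A five-element of `K` centralizes nothing in `Q` outside `⟨z⟩`. -/
lemma fpf {f : G} (hf : f ∈ K) (hf5 : f ^ 5 = 1) (hf1 : f ≠ 1) {q : G} (hq : q ∈ Q)
    (hfq : f * q = q * f) : q = 1 ∨ q = z := by
  let σ : Equiv.Perm ↥Q :=
    { toFun := fun a => ⟨f * a * f⁻¹, S.norm f hf a a.2⟩
      invFun := fun a => ⟨f⁻¹ * a * f, by simpa using S.norm f⁻¹ (inv_mem hf) a a.2⟩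
      left_inv := fun a => Subtype.ext (by group)
      right_inv := fun a => Subtype.ext (by group) }
  have hpow : ∀ (n : ℕ) (a : ↥Q), ((σ ^ n) a : G) = f ^ n * a * (f ^ n)⁻¹ := by
    intro n
    induction n with
    | zero => intro a; simp
    | succ n ih =>
      intro a
      rw [pow_succ', Equiv.Perm.mul_apply]
      show f * ((σ ^ n) a : G) * f⁻¹ = _
      rw [ih, pow_succ' f n]; group
  haveI : Fact (Nat.Prime 5) := ⟨by norm_num⟩
  have h5 : σ ^ 5 ^ 1 = 1 := Equiv.ext fun a => Subtype.ext (by rw [hpow, pow_one, hf5]; simp)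
  have hmod := Equiv.Perm.card_compl_support_modEq (p := 5) (n := 1) h5
  rw [← Nat.card_eq_fintype_card, S.card] at hmod
  let C : Subgroup G := Q ⊓ Subgroup.centralizer ({f} : Set G)
  have hCcard : σ.supportᶜ.card = Nat.card C := by
    rw [← Nat.card_eq_finsetCard]
    refine Nat.card_congr
      { toFun := fun a => ⟨(a.1 : G), ⟨a.1.2, ?_⟩⟩
        invFun := fun a => ⟨⟨a.1, a.2.1⟩, ?_⟩
        left_inv := fun a => rfl
        right_inv := fun a => rfl }
    · have h := congrArg Subtype.val (Equiv.Perm.notMem_support.mp (Finset.mem_compl.mp a.2))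
      exact Subgroup.mem_centralizer_singleton_iff.mpr (mul_inv_eq_iff_eq_mul.mp h).symm
    · rw [Finset.mem_compl, Equiv.Perm.notMem_support]
      exact Subtype.ext (mul_inv_eq_iff_eq_mul.mpr
        (Subgroup.mem_centralizer_singleton_iff.mp a.2.2).symm)
  have hdvd : Nat.card C ∣ 32 := S.card ▸ Subgroup.card_dvd_of_le inf_le_left
  have hne : Nat.card C ≠ 32 := by
    intro h
    have hCQ : C = Q := Subgroup.eq_of_le_of_card_ge inf_le_left (le_of_eq (h.trans S.card.symm).symm)
    have hfQ : f ∈ Q := S.cq f hf fun a ha =>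
      (Subgroup.mem_centralizer_singleton_iff.mp (hCQ.symm.le ha).2).symm
    have h32 : orderOf f ∣ 32 := S.card ▸ Subgroup.orderOf_dvd_natCard Q hfQ
    have h5' : orderOf f ∣ Nat.gcd 32 5 := Nat.dvd_gcd h32 (orderOf_dvd_of_pow_eq_one hf5)
    rw [show Nat.gcd 32 5 = 1 by decide, Nat.dvd_one, orderOf_eq_one_iff] at h5'
    exact hf1 h5'
  have hC2 : Nat.card C = 2 := by
    have hle := Nat.le_of_dvd (by norm_num) hdvd
    rw [hCcard] at hmod
    unfold Nat.ModEq at hmod
    interval_cases h : Nat.card C <;> first | rfl | omega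
  by_contra hq'
  push Not at hq'
  have hzf : z ∈ C := ⟨S.zQ, Subgroup.mem_centralizer_singleton_iff.mpr (S.zK f hf).symm⟩
  have hqf : q ∈ C := ⟨hq, Subgroup.mem_centralizer_singleton_iff.mpr hfq.symm⟩
  have h3 : ({1, ⟨z, hzf⟩, ⟨q, hqf⟩} : Finset C).card = 3 := by
    rw [Finset.card_insert_of_notMem, Finset.card_pair]
    · simpa [Subtype.ext_iff] using fun h => hq'.2 h.symm
    · simp [Subtype.ext_iff, Ne.symm S.z1, Ne.symm hq'.1]
  have := Finset.card_le_univ ({1, ⟨z, hzf⟩, ⟨q, hqf⟩} : Finset C)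
  rw [h3, ← Nat.card_eq_fintype_card, hC2] at this
  omega

end count

end Setup

end Cfsg.Agent.Lib.JTwoPattern
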