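import Mathlib.GroupTheory.SpecificGroups.Alternating.Simple
import Mathlib.GroupTheory.Perm.Sign
import Mathlib.Tactic
import Cfsg.Agent.Lib.JTwoPattern.Count

/-!
The five points of `2^{1+4}` under `A₅` and the final count.
-/

set_option autoImplicit false
set_option linter.style.haveILetI false
set_option linter.unusedSectionVars false

namespace Cfsg.Agent.Lib.JTwoPattern

open scoped Classical

variable {G : Type*} [Group G] [Fintype G]

namespace Setup

variable {z : G} {Q K : Subgroup G} (S : Setup z Q K)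
include S

lemma exists_five : ∃ f ∈ K, f ^ 5 = 1 ∧ f ≠ 1 := by
  obtain ⟨π, hπ, -⟩ := S.quot
  have h60 : Nat.card (alternatingGroup (Fin 5)) = 60 := by
    rw [nat_card_alternatingGroup]; simp [Nat.factorial]
  have h5 : 5 ∣ Nat.card ↥K := (show 5 ∣ Nat.card (alternatingGroup (Fin 5)) by rw [h60]; norm_num).trans
    (Subgroup.card_dvd_of_surjective π hπ)
  haveI : Fact (Nat.Prime 5) := ⟨by norm_num⟩
  obtain ⟨f, hf⟩ := exists_prime_orderOf_dvd_card' 5 h5
  refine ⟨f, f.2, ?_, ?_⟩
  · rw [← Subgroup.coe_pow, ← hf, pow_orderOf_eq_one, Subgroup.coe_one]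
  · intro h
    rw [show f = 1 from Subtype.ext h, orderOf_one] at hf
    norm_num at hf

/-- Being one of the ten non-central involutions of `Q`. -/
lemma conj_mem {g : G} (hg : g ∈ K) {x : G} (hx : x ∈ Q ∧ x * x = 1 ∧ x ≠ 1 ∧ x ≠ z) :
    g * x * g⁻¹ ∈ Q ∧ (g * x * g⁻¹) * (g * x * g⁻¹) = 1 ∧ g * x * g⁻¹ ≠ 1 ∧ g * x * g⁻¹ ≠ z := by
  obtain ⟨h1, h2, h3, h4⟩ := hx
  refine ⟨S.norm g hg x h1, ?_, ?_, ?_⟩
  · calc g * x * g⁻¹ * (g * x * g⁻¹) = g * (x * x) * g⁻¹ := by group
      _ = 1 := by rw [h2]; group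
  · rw [ne_eq, conj_eq_one_iff]; exact h3
  · intro h
    refine h4 ?_
    calc x = g⁻¹ * (g * x * g⁻¹) * g := by group
      _ = g⁻¹ * (z * g) := by rw [h, mul_assoc]
      _ = z := by rw [← S.zK g hg]; group

lemma mul_z_mem {x : G} (hx : x ∈ Q ∧ x * x = 1 ∧ x ≠ 1 ∧ x ≠ z) :
    x * z ∈ Q ∧ (x * z) * (x * z) = 1 ∧ x * z ≠ 1 ∧ x * z ≠ z := by
  obtain ⟨h1, h2, h3, h4⟩ := hx
  refine ⟨mul_mem h1 S.zQ, by rw [S.sq_mul_z h1, h2], ?_, by simpa using h3⟩
  intro h
  exact h4 (by rw [← S.zz x, h, one_mul])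

/-- The five points. -/
lemma exists_points : ∃ X : Fin 5 → G,
    (∀ i, X i ∈ Q ∧ X i * X i = 1 ∧ X i ≠ 1 ∧ X i ≠ z) ∧
    (∀ i j, i ≠ j → X j ≠ X i ∧ X j ≠ X i * z ∧ X i * X j ≠ X j * X i) ∧
    (∀ x : G, x ∈ Q ∧ x * x = 1 ∧ x ≠ 1 ∧ x ≠ z → ∃ i, x = X i ∨ x = X i * z) ∧
    (∀ a ∈ Q, (∀ i, a * X i = X i * a) → a = 1 ∨ a = z) ∧
    (∃ f ∈ K, ∀ i : Fin 5, f * X i * f⁻¹ = X (i + 1)) := by
  obtain ⟨f, hf, hf5, hf1⟩ := S.exists_five
  set I := Finset.univ.filter fun x : G => x ∈ Q ∧ x * x = 1 ∧ x ≠ 1 ∧ x ≠ z with hI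
  have hmemI : ∀ x, x ∈ I ↔ x ∈ Q ∧ x * x = 1 ∧ x ≠ 1 ∧ x ≠ z := fun x => by simp [hI]
  have hIcard : I.card = 18 ∨ I.card = 10 := by
    have e : (Finset.univ.filter fun a : ↥Q => (a : G) * a = 1).card = I.card + 2 := by
      have hmap : (Finset.univ.filter fun a : ↥Q => (a : G) * a = 1).map ⟨Subtype.val, Subtype.val_injective⟩
          = insert 1 (insert z I) := by
        ext x
        simp only [Finset.mem_map, Finset.mem_filter, Finset.mem_univ, true_and,
          Function.Embedding.coeFn_mk, Finset.mem_insert, hmemI]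
        constructor
        · rintro ⟨a, ha, rfl⟩
          by_cases h1 : (a : G) = 1
          · exact Or.inl h1
          by_cases h2 : (a : G) = z
          · exact Or.inr (Or.inl h2)
          exact Or.inr (Or.inr ⟨a.2, ha, h1, h2⟩)
        · rintro (rfl | rfl | ⟨hx, hx2, -⟩)
          · exact ⟨1, by simp, by simp⟩
          · exact ⟨⟨x, S.zQ⟩, S.z2, rfl⟩
          · exact ⟨⟨x, hx⟩, hx2, rfl⟩
      rw [← Finset.card_map, hmap, Finset.card_insert_of_notMem, Finset.card_insert_of_notMem]
      · simp [hmemI]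
      · simp [hmemI, Ne.symm S.z1]
    rcases S.card_square_roots with h | h <;> omega
  have hI10 : I.card = 10 := by
    let σ : Equiv.Perm {x : G // x ∈ I} :=
      { toFun := fun x => ⟨f * x * f⁻¹, (hmemI _).mpr (S.conj_mem hf ((hmemI _).mp x.2))⟩
        invFun := fun x => ⟨f⁻¹ * x * f, (hmemI _).mpr (by simpa using S.conj_mem (inv_mem hf) ((hmemI _).mp x.2))⟩
        left_inv := fun x => Subtype.ext (by group)
        right_inv := fun x => Subtype.ext (by group) }
    have hpow : ∀ (n : ℕ) (a : {x : G // x ∈ I}), ((σ ^ n) a : G) = f ^ n * a * (f ^ n)⁻¹ := by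
      intro n
      induction n with
      | zero => intro a; simp
      | succ n ih =>
        intro a
        rw [pow_succ', Equiv.Perm.mul_apply]
        show f * ((σ ^ n) a : G) * f⁻¹ = _
        rw [ih, pow_succ' f n]; group
    haveI : Fact (Nat.Prime 5) := ⟨by norm_num⟩
    have h5 : σ ^ 5 ^ 1 = 1 := Equiv.ext fun a => Subtype.ext (by rw [hpow, pow_one, hf5]; simp)
    have hmod := Equiv.Perm.card_compl_support_modEq (p := 5) (n := 1) h5
    have hempty : σ.supportᶜ = ∅ := by
      rw [Finset.eq_empty_iff_forall_notMem]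
      intro a ha
      have h := congrArg Subtype.val (Equiv.Perm.notMem_support.mp (Finset.mem_compl.mp ha))
      obtain ⟨h1, -, h3, h4⟩ := (hmemI _).mp a.2
      rcases S.fpf hf hf5 hf1 h1 (mul_inv_eq_iff_eq_mul.mp h) with h' | h'
      · exact h3 h'
      · exact h4 h'
    rw [hempty, Finset.card_empty, Fintype.card_coe] at hmod
    unfold Nat.ModEq at hmod
    omega
  obtain ⟨x, hx⟩ : ∃ x, x ∈ I := Finset.card_pos.mp (by omega)
  obtain ⟨hxQ, hx2, hx1, hxz⟩ := (hmemI x).mp hx
  let X : Fin 5 → G := fun i => f ^ (i : ℕ) * x * (f ^ (i : ℕ))⁻¹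
  have hX : ∀ i, X i ∈ Q ∧ X i * X i = 1 ∧ X i ≠ 1 ∧ X i ≠ z := fun i =>
    S.conj_mem (pow_mem hf _) ⟨hxQ, hx2, hx1, hxz⟩
  have hshift : ∀ i : Fin 5, f * X i * f⁻¹ = X (i + 1) := by
    intro i
    fin_cases i <;> simp only [X] <;>
      first
      | (show f * (f ^ 0 * x * (f ^ 0)⁻¹) * f⁻¹ = f ^ 1 * x * (f ^ 1)⁻¹; group; done)
      | (show f * (f ^ 1 * x * (f ^ 1)⁻¹) * f⁻¹ = f ^ 2 * x * (f ^ 2)⁻¹; group; done)
      | (show f * (f ^ 2 * x * (f ^ 2)⁻¹) * f⁻¹ = f ^ 3 * x * (f ^ 3)⁻¹; group; done)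
      | (show f * (f ^ 3 * x * (f ^ 3)⁻¹) * f⁻¹ = f ^ 4 * x * (f ^ 4)⁻¹; group; done)
      | (show f * (f ^ 4 * x * (f ^ 4)⁻¹) * f⁻¹ = f ^ 0 * x * (f ^ 0)⁻¹
         calc f * (f ^ 4 * x * (f ^ 4)⁻¹) * f⁻¹ = f ^ 5 * x * (f ^ 5)⁻¹ := by group
           _ = _ := by rw [hf5, pow_zero])
  have hdist0 : ∀ d : Fin 5, d ≠ 0 → X d ≠ X 0 ∧ X d ≠ X 0 * z := by
    intro d hd
    have key : f ^ (d : ℕ) * x * (f ^ (d : ℕ))⁻¹ = x ∨ f ^ (d : ℕ) * x * (f ^ (d : ℕ))⁻¹ = x * z → False := by
      intro h
      set g := f ^ (d : ℕ) with hg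
      have hgz : g * z = z * g := S.zK g (pow_mem hf _)
      have h2 : Commute (g * g) x := by
        refine mul_inv_eq_iff_eq_mul.mp ?_
        rcases h with h | h
        · calc g * g * x * (g * g)⁻¹ = g * (g * x * g⁻¹) * g⁻¹ := by group
            _ = x := by rw [h, h]
        · calc g * g * x * (g * g)⁻¹ = g * (g * x * g⁻¹) * g⁻¹ := by group
            _ = g * (x * z) * g⁻¹ := by rw [h]
            _ = g * x * g⁻¹ * (g * z * g⁻¹) := by group
            _ = x * z * z := by rw [h, hgz, mul_inv_cancel_right]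
            _ = x := S.zz x
      have hf' : ∃ k : ℕ, (g * g) ^ k = f := by
        have h5' : ∀ n : ℕ, f ^ n = f ^ (n % 5) := fun n => by
          conv_lhs => rw [← Nat.mod_add_div n 5, pow_add, pow_mul, hf5, one_pow, mul_one]
        rw [hg, ← pow_add]
        fin_cases d
        · exact absurd rfl hd
        · exact ⟨3, by rw [← pow_mul, h5']; norm_num⟩
        · exact ⟨4, by rw [← pow_mul, h5']; norm_num⟩
        · exact ⟨1, by rw [← pow_mul, h5']; norm_num⟩
        · exact ⟨2, by rw [← pow_mul, h5']; norm_num⟩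
      obtain ⟨k, hk⟩ := hf'
      have hfx : Commute f x := hk ▸ h2.pow_left k
      rcases S.fpf hf hf5 hf1 hxQ hfx with h' | h'
      · exact hx1 h'
      · exact hxz h'
    constructor
    · intro h; exact key (Or.inl (by simpa [X] using h))
    · intro h; exact key (Or.inr (by simpa [X] using h))
  have hstep : ∀ (i j : Fin 5), (X (j + 1) ≠ X (i + 1) ↔ X j ≠ X i) ∧
      (X (j + 1) ≠ X (i + 1) * z ↔ X j ≠ X i * z) ∧
      (X (i + 1) * X (j + 1) = X (j + 1) * X (i + 1) ↔ X i * X j = X j * X i) := by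
    intro i j
    rw [← hshift i, ← hshift j]
    refine ⟨?_, ?_, ?_⟩
    · simp
    · have : f * X i * f⁻¹ * z = f * (X i * z) * f⁻¹ := by
        calc f * X i * f⁻¹ * z = f * X i * (f⁻¹ * z) := mul_assoc _ _ _
          _ = f * X i * (z * f⁻¹) := by rw [S.zK f⁻¹ (inv_mem hf)]
          _ = _ := by group
      rw [this]; simp
    · rw [show f * X i * f⁻¹ * (f * X j * f⁻¹) = f * (X i * X j) * f⁻¹ by group,
        show f * X j * f⁻¹ * (f * X i * f⁻¹) = f * (X j * X i) * f⁻¹ by group]
      simp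
  have hshiftn : ∀ (n : Fin 5) (i j : Fin 5), (X (j + n) ≠ X (i + n) ↔ X j ≠ X i) ∧
      (X (j + n) ≠ X (i + n) * z ↔ X j ≠ X i * z) ∧
      (X (i + n) * X (j + n) = X (j + n) * X (i + n) ↔ X i * X j = X j * X i) := by
    intro n
    induction n using Fin.induction with
    | zero => intro i j; simp
    | succ n ih =>
      intro i j
      rw [← Fin.coeSucc_eq_succ, ← add_assoc, ← add_assoc]
      obtain ⟨a1, a2, a3⟩ := ih i j
      obtain ⟨b1, b2, b3⟩ := hstep (i + n.castSucc) (j + n.castSucc)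
      exact ⟨b1.trans a1, b2.trans a2, b3.trans a3⟩
  have hdist : ∀ i j, i ≠ j → X j ≠ X i ∧ X j ≠ X i * z := by
    intro i j hij
    obtain ⟨a1, a2, -⟩ := hshiftn i 0 (j - i)
    rw [zero_add, sub_add_cancel] at a1 a2
    exact ⟨a1.mpr (hdist0 _ (sub_ne_zero.mpr (Ne.symm hij))).1,
      a2.mpr (hdist0 _ (sub_ne_zero.mpr (Ne.symm hij))).2⟩
  have hcov : ∀ y : G, y ∈ Q ∧ y * y = 1 ∧ y ≠ 1 ∧ y ≠ z → ∃ i, y = X i ∨ y = X i * z := by
    let φ : Fin 5 × Bool → G := fun p => if p.2 then X p.1 * z else X p.1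
    have hinj : Function.Injective φ := by
      rintro ⟨i, a⟩ ⟨j, b⟩ h
      simp only [φ] at h
      by_cases hij : i = j
      · subst hij
        cases a <;> cases b <;> simp only [Bool.false_eq_true, if_false, if_true] at h
        · rfl
        · exact absurd h.symm (S.mul_z_ne _)
        · exact absurd h (S.mul_z_ne _)
        · rfl
      · obtain ⟨d1, d2⟩ := hdist i j hij
        obtain ⟨e1, e2⟩ := hdist j i (Ne.symm hij)
        cases a <;> cases b <;> simp at h
        · exact absurd h.symm d1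
        · exact absurd h e2
        · exact absurd h.symm d2
        · exact absurd h.symm d1
    have himg : Finset.univ.image φ = I := by
      refine Finset.eq_of_subset_of_card_le ?_ ?_
      · intro y hy
        obtain ⟨⟨i, a⟩, -, rfl⟩ := Finset.mem_image.mp hy
        rw [hmemI]
        cases a
        · exact hX i
        · exact S.mul_z_mem (hX i)
      · rw [hI10, Finset.card_image_of_injective _ hinj]; simp
    intro y hy
    obtain ⟨⟨i, a⟩, -, rfl⟩ := Finset.mem_image.mp (himg.symm ▸ (hmemI y).mpr hy)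
    cases a
    · exact ⟨i, Or.inl rfl⟩
    · exact ⟨i, Or.inr rfl⟩
  -- no two points commute
  let R : Fin 5 → Fin 5 → Prop := fun i j => X i * X j = X j * X i
  have hRsymm : ∀ i j, R i j → R j i := fun i j h => h.symm
  have hRn : ∀ n i j : Fin 5, R i j → R (i + n) (j + n) := fun n i j h => (hshiftn n i j).2.2.mpr h
  have hline : ∀ i j, i ≠ j → R i j → ∃ k, k ≠ i ∧ k ≠ j ∧ R i k ∧ R j k := by
    intro i j hij h
    obtain ⟨hiQ, hi2, hi1, hiz⟩ := hX i
    obtain ⟨hjQ, hj2, hj1, hjz⟩ := hX j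
    have hp : X i * X j ∈ Q ∧ (X i * X j) * (X i * X j) = 1 ∧ X i * X j ≠ 1 ∧ X i * X j ≠ z := by
      refine ⟨mul_mem hiQ hjQ, ?_, ?_, ?_⟩
      · calc X i * X j * (X i * X j) = X i * (X j * X i) * X j := by group
          _ = X i * (X i * X j) * X j := by rw [show X i * X j = X j * X i from h]
          _ = (X i * X i) * (X j * X j) := by group
          _ = 1 := by rw [hi2, hj2, mul_one]
      · intro h1
        refine (hdist i j hij).1 ?_
        calc X j = X i * X i * X j := by rw [hi2, one_mul]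
          _ = X i := by rw [mul_assoc, h1, mul_one]
      · intro h1
        refine (hdist i j hij).2 ?_
        calc X j = X i * X i * X j := by rw [hi2, one_mul]
          _ = X i * z := by rw [mul_assoc, h1]
    obtain ⟨k, hk⟩ := hcov _ hp
    have hki : k ≠ i := by
      rintro rfl
      rcases hk with hk | hk
      · exact hj1 (mul_eq_left.mp hk)
      · exact hjz (mul_left_cancel hk)
    have hkj : k ≠ j := by
      rintro rfl
      rcases hk with hk | hk
      · exact hi1 (mul_eq_right.mp hk)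
      · rw [S.zc _ hjQ] at hk
        exact hiz (mul_right_cancel hk)
    refine ⟨k, hki, hkj, ?_, ?_⟩
    · have h1 : (X i * X j) * X i = X i * (X i * X j) := (S.comm_mul hiQ hjQ hiQ).mpr
        (iff_of_true rfl h.symm)
      rcases hk with hk | hk <;> rw [hk] at h1
      · exact h1.symm
      · exact ((S.comm_mul_z (hX k).1 hiQ).mp h1).symm
    · have h1 : (X i * X j) * X j = X j * (X i * X j) := (S.comm_mul hiQ hjQ hjQ).mpr
        (iff_of_true h rfl)
      rcases hk with hk | hk <;> rw [hk] at h1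
      · exact h1.symm
      · exact ((S.comm_mul_z (hX k).1 hjQ).mp h1).symm
  have h12 : R 0 1 → R 0 2 := by
    intro h
    obtain ⟨k, hk0, hk1, ha, hb⟩ := hline 0 1 (by decide) h
    fin_cases k
    · exact absurd rfl hk0
    · exact absurd rfl hk1
    · exact ha
    · exact hRsymm _ _ (hRn 2 0 3 ha)
    · exact hRsymm _ _ (hRn 1 1 4 hb)
  have h21 : R 0 2 → R 0 1 := by
    intro h
    obtain ⟨k, hk0, hk2, ha, hb⟩ := hline 0 2 (by decide) h
    fin_cases k
    · exact absurd rfl hk0
    · exact ha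
    · exact absurd rfl hk2
    · exact hRn 3 2 3 hb
    · exact hRsymm _ _ (hRn 1 0 4 ha)
  have hno : ¬ R 0 1 := by
    intro h
    have hall : ∀ i j, R i j := by
      have h2 := h12 h
      have h0 : ∀ d, R 0 d := by
        intro d
        fin_cases d
        · exact rfl
        · exact h
        · exact h2
        · exact hRsymm _ _ (hRn 3 0 2 h2)
        · exact hRsymm _ _ (hRn 4 0 1 h)
      intro i j
      have := hRn i 0 (j - i) (h0 _)
      rwa [zero_add, sub_add_cancel] at this
    have hcomm : ∀ a ∈ I, ∀ b ∈ I, a * b = b * a := by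
      intro a ha b hb
      obtain ⟨i, hi⟩ := hcov a ((hmemI a).mp ha)
      obtain ⟨j, hj⟩ := hcov b ((hmemI b).mp hb)
      have h0 : Commute (X i) (X j) := hall i j
      have hzi : Commute z (X i) := S.comm_z (hX i).1
      have hzj : Commute z (X j) := S.comm_z (hX j).1
      rcases hi with rfl | rfl <;> rcases hj with rfl | rfl
      · exact h0
      · exact h0.mul_right hzi.symm
      · exact h0.mul_left hzj
      · exact (h0.mul_right hzi.symm).mul_left (hzj.mul_right (Commute.refl z))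
    let A : Subgroup G :=
      { carrier := {a | a ∈ Q ∧ a * a = 1}
        one_mem' := ⟨one_mem _, mul_one 1⟩
        mul_mem' := by
          rintro a b ⟨ha, ha2⟩ ⟨hb, hb2⟩
          refine ⟨mul_mem ha hb, ?_⟩
          have hab : Commute a b := by
            by_cases h1 : a ∈ I <;> by_cases h3 : b ∈ I
            · exact hcomm a h1 b h3
            · rw [hmemI] at h3; push Not at h3
              rcases eq_or_ne b 1 with rfl | hb1
              · exact Commute.one_right a
              · rw [h3 hb hb2 hb1]; exact S.zc a ha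
            · rw [hmemI] at h1; push Not at h1
              rcases eq_or_ne a 1 with rfl | ha1
              · exact Commute.one_left b
              · rw [h1 ha ha2 ha1]; exact S.comm_z hb
            · rw [hmemI] at h1; push Not at h1
              rcases eq_or_ne a 1 with rfl | ha1
              · exact Commute.one_left b
              · rw [h1 ha ha2 ha1]; exact S.comm_z hb
          rw [hab.symm.mul_mul_mul_comm, ha2, hb2, mul_one]
        inv_mem' := by
          rintro a ⟨ha, ha2⟩
          exact ⟨inv_mem ha, by rw [← mul_inv_rev, ha2, inv_one]⟩ }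
    have hA : (Finset.univ.filter fun a : G => a ∈ A) = insert 1 (insert z I) := by
      ext a
      simp only [Finset.mem_filter, Finset.mem_univ, true_and, Finset.mem_insert, hmemI]
      constructor
      · rintro ⟨ha, ha2⟩
        by_cases h1 : a = 1
        · exact Or.inl h1
        by_cases h2 : a = z
        · exact Or.inr (Or.inl h2)
        exact Or.inr (Or.inr ⟨ha, ha2, h1, h2⟩)
      · rintro (rfl | rfl | ⟨ha, ha2, -⟩)
        · exact one_mem _
        · exact ⟨S.zQ, S.z2⟩
        · exact ⟨ha, ha2⟩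
    have hAcard : Nat.card A = 12 := by
      rw [Nat.card_eq_fintype_card, Fintype.card_subtype, hA, Finset.card_insert_of_notMem,
        Finset.card_insert_of_notMem, hI10]
      · simp [hmemI]
      · simp [hmemI, Ne.symm S.z1]
    have := Subgroup.card_dvd_of_le (show A ≤ Q from fun a ha => ha.1)
    rw [hAcard, S.card] at this
    norm_num at this
  have hnc : ∀ i j, i ≠ j → X i * X j ≠ X j * X i := by
    intro i j hij h
    have h0 := hRn (-i) i j h
    rw [add_neg_cancel, ← sub_eq_add_neg] at h0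
    have hd : j - i ≠ 0 := sub_ne_zero.mpr (Ne.symm hij)
    generalize j - i = d at h0 hd
    fin_cases d
    · exact hd rfl
    · exact hno h0
    · exact hno (h21 h0)
    · exact hno (h21 (hRsymm _ _ (hRn 2 0 3 h0)))
    · exact hno (hRsymm _ _ (hRn 1 0 4 h0))
  refine ⟨X, hX, fun i j hij => ⟨(hdist i j hij).1, (hdist i j hij).2, hnc i j hij⟩, hcov, ?_, f, hf, hshift⟩
  -- the points generate
  intro a ha hac
  let L : Option {p : Fin 5 × Fin 5 // p.1 ≤ p.2} → G := fun o =>
    match o with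
    | none => 1
    | some p => if p.1.1 = p.1.2 then X p.1.1 else X p.1.1 * X p.1.2
  let V : Option {p : Fin 5 × Fin 5 // p.1 ≤ p.2} → Fin 5 → Bool := fun o k =>
    match o with
    | none => true
    | some p => if p.1.1 = p.1.2 then decide (k = p.1.1) else (decide (k ≠ p.1.1) && decide (k ≠ p.1.2))
  have hVinj : Function.Injective V := by decide +kernel
  have hXc : ∀ i k, X i * X k = X k * X i ↔ k = i := fun i k =>
    ⟨fun h => by_contra fun hne => hnc i k (Ne.symm hne) h, fun h => by rw [h]⟩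
  have hLQ : ∀ o, L o ∈ Q := by
    rintro (_ | p)
    · exact one_mem _
    · simp only [L]; split_ifs
      · exact (hX _).1
      · exact mul_mem (hX _).1 (hX _).1
  have hLV : ∀ o k, L o * X k = X k * L o ↔ V o k = true := by
    rintro (_ | p) k
    · simp [L, V]
    · simp only [L, V]
      split_ifs with h
      · simp [hXc]
      · rw [S.comm_mul (hX _).1 (hX _).1 (hX _).1, hXc, hXc]
        simp only [Bool.and_eq_true, decide_eq_true_eq]
        constructor
        · intro h'
          refine ⟨fun e => h ?_, fun e => h ?_⟩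
          · exact e.symm.trans (h'.mp e)
          · exact (h'.mpr e).symm.trans e
        · rintro ⟨h1, h2⟩; exact iff_of_false h1 h2
  let H : Subgroup G := Subgroup.closure (Set.range X)
  have hXH : ∀ i, X i ∈ H := fun i => Subgroup.subset_closure ⟨i, rfl⟩
  have hzH : z ∈ H := by
    rcases S.com _ (hX 0).1 _ (hX 1).1 with h | h
    · exact absurd h (hnc 0 1 (by decide))
    · have : z = (X 1 * X 0)⁻¹ * (X 0 * X 1) := by rw [h]; group
      rw [this]
      exact mul_mem (inv_mem (mul_mem (hXH 1) (hXH 0))) (mul_mem (hXH 0) (hXH 1))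
  have hLH : ∀ o, L o ∈ H := by
    rintro (_ | p)
    · exact one_mem _
    · simp only [L]; split_ifs
      · exact hXH _
      · exact mul_mem (hXH _) (hXH _)
  have hHQ : H ≤ Q := (Subgroup.closure_le _).mpr (by rintro _ ⟨i, rfl⟩; exact (hX i).1)
  let φ : Option {p : Fin 5 × Fin 5 // p.1 ≤ p.2} × Bool → H := fun q =>
    ⟨if q.2 then L q.1 * z else L q.1, by split_ifs <;> [exact mul_mem (hLH _) hzH; exact hLH _]⟩
  have hφ : Function.Injective φ := by
    rintro ⟨o, b⟩ ⟨o', b'⟩ h
    have h' := congrArg Subtype.val h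
    simp only [φ] at h'
    have ho : o = o' := by
      refine hVinj (funext fun k => Bool.eq_iff_iff.mpr ?_)
      rw [← hLV, ← hLV]
      cases b <;> cases b' <;> simp only [Bool.false_eq_true, if_false, if_true] at h'
      · rw [h']
      · rw [h', S.comm_mul_z (hLQ _) (hX k).1]
      · rw [← h', S.comm_mul_z (hLQ _) (hX k).1]
      · rw [mul_right_cancel h']
    subst ho
    cases b <;> cases b' <;> simp only [Bool.false_eq_true, if_false, if_true] at h'
    · rfl
    · exact absurd h'.symm (S.mul_z_ne _)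
    · exact absurd h' (S.mul_z_ne _)
    · rfl
  have hcard : Fintype.card (Option {p : Fin 5 × Fin 5 // p.1 ≤ p.2} × Bool) = 32 := by decide +kernel
  have hHcard := Fintype.card_le_of_injective φ hφ
  rw [hcard, ← Nat.card_eq_fintype_card] at hHcard
  have hHeq : H = Q := Subgroup.eq_of_le_of_card_ge hHQ (by rw [S.card]; exact hHcard)
  refine S.cen a ha fun b hb => ?_
  rw [← hHeq] at hb
  induction hb using Subgroup.closure_induction with
  | mem y hy => obtain ⟨i, rfl⟩ := hy; exact hac i
  | one => simp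
  | mul y w _ _ hy hw => exact ((show Commute a y from hy).mul_right hw).eq
  | inv y _ hy => exact (show Commute a y from hy).inv_right.eq

end Setup

end Cfsg.Agent.Lib.JTwoPattern
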