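import Mathlib.GroupTheory.SpecificGroups.Alternating.Simple
import Mathlib.Tactic
import Cfsg.Agent.Lib.JTwoPattern.Points

/-!
The number of pairs (`x`, `k q`) in `2^{1+4}:A₅`.
-/

set_option autoImplicit false
set_option linter.style.haveILetI false
set_option linter.unusedSectionVars false

namespace Cfsg.Agent.Lib.JTwoPattern

open scoped Classical

variable {G : Type*} [Group G] [Fintype G]

namespace Setup

variable {z : G} {Q K : Subgroup G} (S : Setup z Q K)
include S

lemma conj_comm {k : G} (_hk : k ∈ K) {a b : G} :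
    (k * a * k⁻¹) * (k * b * k⁻¹) = (k * b * k⁻¹) * (k * a * k⁻¹) ↔ a * b = b * a := by
  rw [show k * a * k⁻¹ * (k * b * k⁻¹) = k * (a * b) * k⁻¹ by group,
    show k * b * k⁻¹ * (k * a * k⁻¹) = k * (b * a) * k⁻¹ by group, mul_left_inj, mul_right_inj]

/-- For an involution `k` of `K` outside `Q`: the fixed point, the centralizers and the counts. -/
lemma involution_facts {k : G} (hk : k ∈ K) (hk2 : k * k = 1) (hkQ : k ∉ Q) :
    ∃ w : G, (w ∈ Q ∧ w * w = 1 ∧ w ≠ 1 ∧ w ≠ z) ∧
      (∀ q ∈ Q, k * q = q * k ↔ q = 1 ∨ q = z ∨ q = w ∨ q = w * z) ∧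
      (∀ g ∈ K, g * k = k * g → g * w = w * g) ∧
      Nat.card {q : G // q ∈ Q ∧ k * q * (k * q) = 1} = 8 ∧
      Nat.card {p : G × G // p.1 ∈ Q ∧ k * p.1 * (k * p.1) = 1 ∧
        (p.2 ∈ Q ∧ p.2 * p.2 = 1 ∧ p.2 ≠ 1) ∧ z ∈ Subgroup.zpowers (p.2 * (k * p.1))} = 64 := by
  obtain ⟨X, hX, hXne, hcov, hgen, f, hf, hshift⟩ := S.exists_points
  have hki : k⁻¹ = k := inv_eq_of_mul_eq_one_left hk2
  have hXc : ∀ i j, X i * X j = X j * X i ↔ i = j := fun i j =>
    ⟨fun h => by_contra fun hne => (hXne i j hne).2.2 h, fun h => by rw [h]⟩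
  -- classes
  have hπex : ∀ g ∈ K, ∀ i, ∃ j, g * X i * g⁻¹ = X j ∨ g * X i * g⁻¹ = X j * z := fun g hg i =>
    hcov _ (S.conj_mem hg (hX i))
  choose π hπ using hπex
  have huniq : ∀ (y : G) i j, (y = X i ∨ y = X i * z) → (y = X j ∨ y = X j * z) → i = j := by
    intro y i j h1 h2
    by_contra hne
    obtain ⟨d1, d2, -⟩ := hXne i j hne
    obtain ⟨e1, e2, -⟩ := hXne j i (Ne.symm hne)
    rcases h1 with rfl | rfl <;> rcases h2 with h2 | h2
    · exact d1 h2.symm
    · exact e2 h2
    · exact d2 h2.symm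
    · exact d1 (mul_right_cancel h2).symm
  let τ : ↥K →* Equiv.Perm (Fin 5) :=
    MonoidHom.toHomUnits
      { toFun := fun g => (show Function.End (Fin 5) from π g.1 g.2)
        map_one' := funext fun i => huniq (X i) _ _
          (by simpa using hπ (1 : ↥K).1 (1 : ↥K).2 i) (Or.inl rfl)
        map_mul' := fun a b => funext fun i => by
          show π (a * b).1 (a * b).2 i = π a.1 a.2 (π b.1 b.2 i)
          refine huniq ((a : G) * b * X i * ((a : G) * b)⁻¹) _ _ (hπ _ (a * b).2 i) ?_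
          have hb := hπ b.1 b.2 i
          have ha := hπ a.1 a.2 (π b.1 b.2 i)
          have e : (a : G) * b * X i * ((a : G) * b)⁻¹ = a * (b * X i * (b : G)⁻¹) * (a : G)⁻¹ := by group
          rw [e]
          rcases hb with hb | hb <;> rw [hb]
          · exact ha
          · have e2 : (a : G) * (X (π b.1 b.2 i) * z) * (a : G)⁻¹ = a * X (π b.1 b.2 i) * (a : G)⁻¹ * z := by
              calc (a : G) * (X (π b.1 b.2 i) * z) * (a : G)⁻¹
                  = a * X (π b.1 b.2 i) * (z * (a : G)⁻¹) := by group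
                _ = _ := by rw [← S.zK _ (inv_mem a.2)]; group
            rw [e2]
            rcases ha with ha | ha <;> rw [ha]
            · exact Or.inr rfl
            · exact Or.inl (S.zz _) }
      |> fun h => (Equiv.Perm.equivUnitsEnd (α := Fin 5)).symm.toMonoidHom.comp h
  have hτ : ∀ (g : ↥K) i, (g : G) * X i * (g : G)⁻¹ = X (τ g i) ∨ (g : G) * X i * (g : G)⁻¹ = X (τ g i) * z :=
    fun g i => hπ g.1 g.2 i
  obtain ⟨ψ, hψsurj, hψ⟩ := S.quot
  haveI : IsSimpleGroup (alternatingGroup (Fin 5)) := alternatingGroup.isSimpleGroup_five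
  haveI hnt : ∀ N : Subgroup ↥K, N.Normal → (N.map ψ).Normal := fun N h => h.map ψ hψsurj
  have hτQ : ∀ g : ↥K, (g : G) ∈ Q → τ g = 1 := by
    intro g hg
    refine Equiv.ext fun i => huniq ((g : G) * X i * (g : G)⁻¹) _ _ (hτ g i) ?_
    rcases S.com g hg (X i) (hX i).1 with h | h
    · left; rw [h, mul_inv_cancel_right]; rfl
    · right
      show _ = X i * z
      rw [h, show X i * g * z * (g : G)⁻¹ = X i * ((g : G) * z) * (g : G)⁻¹ by group, S.zc g hg]
      group
  have hker : ∀ g : ↥K, τ g = 1 ↔ (g : G) ∈ Q := by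
    intro g
    refine ⟨fun hg => ?_, hτQ g⟩
    rcases (hnt τ.ker inferInstance).eq_bot_or_eq_top with h | h
    · have : ψ g ∈ τ.ker.map ψ := Subgroup.mem_map_of_mem ψ hg
      rw [h, Subgroup.mem_bot] at this
      exact (hψ g).mp this
    · exfalso
      obtain ⟨g', hg', he⟩ := Subgroup.mem_map.mp (h.symm ▸ Subgroup.mem_top (ψ ⟨f, hf⟩))
      have h1 : τ (g'⁻¹ * ⟨f, hf⟩) = 1 := hτQ _ ((hψ _).mp (by rw [map_mul, map_inv, he, inv_mul_cancel]))
      rw [map_mul, map_inv, show τ g' = 1 from hg', inv_one, one_mul] at h1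
      have := hτ ⟨f, hf⟩ 0
      rw [h1, hshift] at this
      exact absurd (huniq (X (0 + 1)) _ _ (Or.inl rfl) this) (by decide)
  have hsignall : ∀ g : ↥K, Equiv.Perm.sign (τ g) = 1 := by
    intro g
    let χ := (Equiv.Perm.sign (α := Fin 5)).comp τ
    rcases (hnt χ.ker inferInstance).eq_bot_or_eq_top with h | h
    · exfalso
      have hc : ∀ a b : alternatingGroup (Fin 5), a * b = b * a := fun a b => by
        obtain ⟨a', rfl⟩ := hψsurj a
        obtain ⟨b', rfl⟩ := hψsurj b
        have : ψ (a' * b' * (b' * a')⁻¹) ∈ χ.ker.map ψ := Subgroup.mem_map_of_mem ψ (by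
          rw [MonoidHom.mem_ker, map_mul, map_inv, map_mul, map_mul, mul_comm (χ b'), mul_inv_cancel])
        rw [h, Subgroup.mem_bot, map_mul, map_inv, mul_inv_eq_one, map_mul, map_mul] at this
        exact this
      have h3 : Equiv.Perm.sign (Equiv.swap (0 : Fin 5) 1 * Equiv.swap 0 2) = 1 := by decide
      have h4 : Equiv.Perm.sign (Equiv.swap (0 : Fin 5) 3 * Equiv.swap 0 4) = 1 := by decide
      exact absurd (congrArg Subtype.val (hc ⟨_, h3⟩ ⟨_, h4⟩)) (show Equiv.swap (0 : Fin 5) 1 * Equiv.swap 0 2 * (Equiv.swap (0 : Fin 5) 3 * Equiv.swap 0 4) ≠ Equiv.swap (0 : Fin 5) 3 * Equiv.swap 0 4 * (Equiv.swap (0 : Fin 5) 1 * Equiv.swap 0 2) by decide)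
    · obtain ⟨g', hg', he⟩ := Subgroup.mem_map.mp (h.symm ▸ Subgroup.mem_top (ψ g))
      have h1 : τ (g'⁻¹ * g) = 1 := hτQ _ ((hψ _).mp (by rw [map_mul, map_inv, he, inv_mul_cancel]))
      rw [show g = g' * (g'⁻¹ * g) by group, map_mul, h1, mul_one]
      exact hg'
  have hsign : Equiv.Perm.sign (τ ⟨k, hk⟩) = 1 := hsignall _
  obtain ⟨s, hs01, hs23, hs4⟩ := even_involution_fin_five (τ ⟨k, hk⟩)
    (by rw [← map_mul, show (⟨k, hk⟩ : ↥K) * ⟨k, hk⟩ = 1 from Subtype.ext hk2, map_one])
    (fun h => hkQ ((hker _).mp h)) hsign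
  set a := X (s 0) with ha
  set b := k * a * k⁻¹ with hb
  set c := X (s 2) with hc
  set d := k * c * k⁻¹ with hd
  set w := X (s 4) with hw
  have haQ := (hX (s 0)).1
  have hcQ := (hX (s 2)).1
  have hwQ := (hX (s 4)).1
  have hbQ : b ∈ Q := S.norm k hk a haQ
  have hdQ : d ∈ Q := S.norm k hk c hcQ
  -- replacing representatives modulo `z`
  have hbX : b = X (s 1) ∨ b = X (s 1) * z := hs01 ▸ hτ ⟨k, hk⟩ (s 0)
  have hdX : d = X (s 3) ∨ d = X (s 3) * z := hs23 ▸ hτ ⟨k, hk⟩ (s 2)
  have hwk : k * w * k⁻¹ = w ∨ k * w * k⁻¹ = w * z := by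
    have := hτ ⟨k, hk⟩ (s 4)
    rwa [hs4] at this
  have hcl : ∀ {y : G} {j}, (y = X j ∨ y = X j * z) → ∀ {q : G}, q ∈ Q → (y * q = q * y ↔ X j * q = q * X j) := by
    intro y j h q hq
    rcases h with rfl | rfl
    · exact Iff.rfl
    · exact S.comm_mul_z (hX j).1 hq
  have hbcom : ∀ i, b * X (s i) = X (s i) * b ↔ i = 1 := fun i => by
    rw [hcl hbX (hX _).1, hXc, s.injective.eq_iff, eq_comm]
  have hdcom : ∀ i, d * X (s i) = X (s i) * d ↔ i = 3 := fun i => by
    rw [hcl hdX (hX _).1, hXc, s.injective.eq_iff, eq_comm]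
  have habcom : ∀ i, a * b * X (s i) = X (s i) * (a * b) ↔ ¬ (i = 0 ∨ i = 1) := fun i => by
    rw [S.comm_mul haQ hbQ (hX _).1, hbcom, hXc, s.injective.eq_iff]
    fin_cases i <;> simp
  have hcdcom : ∀ i, c * d * X (s i) = X (s i) * (c * d) ↔ ¬ (i = 2 ∨ i = 3) := fun i => by
    rw [S.comm_mul hcQ hdQ (hX _).1, hdcom, hXc, s.injective.eq_iff]
    fin_cases i <;> simp
  have hWQ : a * b * (c * d) ∈ Q := mul_mem (mul_mem haQ hbQ) (mul_mem hcQ hdQ)
  have hWcom : ∀ i, a * b * (c * d) * X (s i) = X (s i) * (a * b * (c * d)) ↔ i = 4 := fun i => by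
    rw [S.comm_mul (mul_mem haQ hbQ) (mul_mem hcQ hdQ) (hX _).1, habcom, hcdcom]
    fin_cases i <;> simp
  have hsamemod : ∀ u ∈ Q, ∀ v ∈ Q,
      (∀ i, (u * X (s i) = X (s i) * u ↔ v * X (s i) = X (s i) * v)) → u = v ∨ u = v * z := by
    intro u hu v hv h
    have hvi : ∀ y, (v⁻¹ * y = y * v⁻¹ ↔ v * y = y * v) := fun y =>
      ⟨fun h => (Commute.inv_left_iff.mp h).eq, fun h => (Commute.inv_left h).eq⟩
    rcases hgen (v⁻¹ * u) (mul_mem (inv_mem hv) hu) (fun i => by
      rw [S.comm_mul (inv_mem hv) hu (hX i).1, hvi]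
      have := h (s.symm i)
      rw [Equiv.apply_symm_apply] at this
      exact this.symm) with h' | h'
    · exact Or.inl (inv_mul_eq_one.mp h').symm
    · exact Or.inr (by rw [← h', mul_inv_cancel_left])
  have hWw : a * b * (c * d) = w ∨ a * b * (c * d) = w * z :=
    hsamemod _ hWQ _ hwQ fun i => by rw [hWcom, hw, hXc, s.injective.eq_iff, eq_comm]
  have hba : b * a = a * b * z := by
    rcases S.com b hbQ a haQ with h | h
    · exact absurd (show b * X (s 0) = X (s 0) * b from h) (fun h' => absurd ((hbcom 0).mp h') (by decide))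
    · exact h
  have hdc : d * c = c * d * z := by
    rcases S.com d hdQ c hcQ with h | h
    · exact absurd (show d * X (s 2) = X (s 2) * d from h) (fun h' => absurd ((hdcom 2).mp h') (by decide))
    · exact h
  have hkb : k * b * k⁻¹ = a := by
    rw [hb, hki, show k * (k * a * k) * k = k * k * a * (k * k) by group, hk2, one_mul, mul_one]
  have hkd : k * d * k⁻¹ = c := by
    rw [hd, hki, show k * (k * c * k) * k = k * k * c * (k * k) by group, hk2, one_mul, mul_one]
  have hkab : k * (a * b) * k⁻¹ = b * a := by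
    rw [show k * (a * b) * k⁻¹ = k * a * k⁻¹ * (k * b * k⁻¹) by group, hkb]
  have hkcd : k * (c * d) * k⁻¹ = d * c := by
    rw [show k * (c * d) * k⁻¹ = k * c * k⁻¹ * (k * d * k⁻¹) by group, hkd]
  have hkz : k * z * k⁻¹ = z := by rw [S.zK k hk, mul_inv_cancel_right]
  have hzc' : ∀ y ∈ Q, Commute z y := fun y hy => S.comm_z hy
  have hkW : k * (a * b * (c * d)) * k⁻¹ = a * b * (c * d) := by
    rw [show k * (a * b * (c * d)) * k⁻¹ = k * (a * b) * k⁻¹ * (k * (c * d) * k⁻¹) by group, hkab, hkcd, hba, hdc]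
    calc a * b * z * (c * d * z) = a * b * (z * (c * d)) * z := by group
      _ = a * b * ((c * d) * z) * z := by rw [(hzc' _ (mul_mem hcQ hdQ)).eq]
      _ = a * b * (c * d) := by rw [← mul_assoc (a * b) (c * d) z, S.zz]
  have hkw : k * w * k⁻¹ = w := by
    rcases hWw with h | h
    · rw [← h, hkW]
    · have h2 : w = a * b * (c * d) * z := by rw [h, S.zz]
      rw [h2, show k * (a * b * (c * d) * z) * k⁻¹ = k * (a * b * (c * d)) * k⁻¹ * (k * z * k⁻¹) by group,
        hkW, hkz]
  -- the inverted elements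
  have hinv_iff : ∀ q : G, (k * q * (k * q) = 1 ↔ k * q * k⁻¹ = q⁻¹) := fun q => by
    rw [hki, ← mul_eq_one_iff_eq_inv, show k * q * (k * q) = k * q * k * q by group]
  have hAB : Commute (a * b) (c * d) := by
    refine (S.comm_mul haQ hbQ (mul_mem hcQ hdQ)).mpr ?_
    have e1 : c * d * a = a * (c * d) := (hcdcom 0).mpr (by decide)
    have e2 : c * d * b = b * (c * d) := by
      have := (hcdcom 1).mpr (by decide)
      exact ((hcl hbX (mul_mem hcQ hdQ)).mpr this.symm).symm
    exact iff_of_true e1.symm e2.symm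
  let T := {q : G // q ∈ Q ∧ k * q * (k * q) = 1}
  have hT : Nat.card T = 8 ∧ ∀ q ∈ Q, (k * q * k⁻¹ = q⁻¹ ∨ k * q * k⁻¹ = q) →
      ∃ p : Bool × Bool × Bool, (if p.1 then a * b else 1) * (if p.2.1 then c * d else 1) *
        (if p.2.2 then z else 1) = q := by
    have hmem : ∀ (p : Bool × Bool × Bool), (if p.1 then a * b else 1) * (if p.2.1 then c * d else 1) *
        (if p.2.2 then z else 1) ∈ Q ∧ k * ((if p.1 then a * b else 1) * (if p.2.1 then c * d else 1) *
        (if p.2.2 then z else 1)) * (k * ((if p.1 then a * b else 1) * (if p.2.1 then c * d else 1) *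
        (if p.2.2 then z else 1))) = 1 := by
      intro p
      set u := (if p.1 then a * b else 1) with hu
      set v := (if p.2.1 then c * d else 1) with hv
      set y := (if p.2.2 then z else 1) with hy
      have huQ : u ∈ Q := by rw [hu]; split_ifs <;> [exact mul_mem haQ hbQ; exact one_mem _]
      have hvQ : v ∈ Q := by rw [hv]; split_ifs <;> [exact mul_mem hcQ hdQ; exact one_mem _]
      have hyQ : y ∈ Q := by rw [hy]; split_ifs <;> [exact S.zQ; exact one_mem _]
      refine ⟨mul_mem (mul_mem huQ hvQ) hyQ, (hinv_iff _).mpr ?_⟩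
      have a2 : a * a = 1 := (hX _).2.1
      have c2 : c * c = 1 := (hX _).2.1
      have b2 : b * b = 1 := by
        rw [hb, show k * a * k⁻¹ * (k * a * k⁻¹) = k * (a * a) * k⁻¹ by group, a2, mul_one, mul_inv_cancel]
      have d2 : d * d = 1 := by
        rw [hd, show k * c * k⁻¹ * (k * c * k⁻¹) = k * (c * c) * k⁻¹ by group, c2, mul_one, mul_inv_cancel]
      have eu : k * u * k⁻¹ = u⁻¹ := by
        rw [hu]; split_ifs
        · rw [hkab, mul_inv_rev, inv_eq_of_mul_eq_one_left a2, inv_eq_of_mul_eq_one_left b2]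
        · simp
      have ev : k * v * k⁻¹ = v⁻¹ := by
        rw [hv]; split_ifs
        · rw [hkcd, mul_inv_rev, inv_eq_of_mul_eq_one_left c2, inv_eq_of_mul_eq_one_left d2]
        · simp
      have ey : k * y * k⁻¹ = y⁻¹ := by
        rw [hy]; split_ifs
        · rw [hkz, inv_eq_of_mul_eq_one_left S.z2]
        · simp
      have huv : Commute u v := by
        rw [hu, hv]; split_ifs
        · exact hAB
        · exact Commute.one_right _
        · exact Commute.one_left _
        · exact Commute.one_left _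
      have hyc : ∀ g ∈ Q, Commute y g := fun g hg => by
        rw [hy]; split_ifs
        · exact hzc' g hg
        · exact Commute.one_left _
      calc k * (u * v * y) * k⁻¹ = k * u * k⁻¹ * (k * v * k⁻¹) * (k * y * k⁻¹) := by group
        _ = u⁻¹ * v⁻¹ * y⁻¹ := by rw [eu, ev, ey]
        _ = (y * (v * u))⁻¹ := by group
        _ = (u * v * y)⁻¹ := by rw [← huv.eq, (hyc _ (mul_mem huQ hvQ)).eq]
    let φ : Bool × Bool × Bool → T := fun p => ⟨_, hmem p⟩
    have hbit : ∀ (p : Bool × Bool × Bool) i, (φ p).1 * X (s i) = X (s i) * (φ p).1 ↔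
        ((p.1 = true → ¬ (i = 0 ∨ i = 1)) ↔ (p.2.1 = true → ¬ (i = 2 ∨ i = 3))) := by
      intro p i
      have hu : (if p.1 then a * b else 1) ∈ Q := by split_ifs <;> [exact mul_mem haQ hbQ; exact one_mem _]
      have hv : (if p.2.1 then c * d else 1) ∈ Q := by split_ifs <;> [exact mul_mem hcQ hdQ; exact one_mem _]
      have hy : (if p.2.2 then z else 1) ∈ Q := by split_ifs <;> [exact S.zQ; exact one_mem _]
      show (if p.1 then a * b else 1) * (if p.2.1 then c * d else 1) * (if p.2.2 then z else 1) * X (s i) = _ ↔ _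
      have hyc : (if p.2.2 then z else 1) * X (s i) = X (s i) * (if p.2.2 then z else 1) := by
        split_ifs <;> [exact S.comm_z (hX _).1; simp]
      rw [S.comm_mul (mul_mem hu hv) hy (hX _).1, iff_true_right hyc, S.comm_mul hu hv (hX _).1]
      refine iff_congr ?_ ?_
      · split_ifs with h <;> simp [h, habcom]
      · split_ifs with h <;> simp [h, hcdcom]
    have hsurj : ∀ q ∈ Q, (k * q * k⁻¹ = q⁻¹ ∨ k * q * k⁻¹ = q) → ∃ p, (φ p).1 = q := by
      intro q hq hqk
      -- `q` and its conjugate have the same pattern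
      have hpair : ∀ {g g' : G}, g ∈ Q → k * g * k⁻¹ = g' → (q * g = g * q ↔ q * g' = g' * q) := by
        intro g g' hg hgg
        rw [← S.conj_comm hk (a := q) (b := g), hgg]
        rcases hqk with hqk | hqk <;> rw [hqk]
        exact ⟨fun h => (Commute.inv_left_iff.mp h).eq, fun h => (Commute.inv_left h).eq⟩
      have p01 := hpair haQ hb.symm
      have p23 := hpair hcQ hd.symm
      have hb' : q * b = b * q ↔ q * X (s 1) = X (s 1) * q := by
        rw [eq_comm, hcl hbX hq, eq_comm]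
      have hd' : q * d = d * q ↔ q * X (s 3) = X (s 3) * q := by
        rw [eq_comm, hcl hdX hq, eq_comm]
      have h4 : q * X (s 4) = X (s 4) * q := by
        refine ((hcl (y := a * b * (c * d)) (j := s 4) hWw hq).mp ?_).symm
        · refine (S.comm_mul (mul_mem haQ hbQ) (mul_mem hcQ hdQ) hq).mpr (iff_of_true ?_ ?_)
          · exact (S.comm_mul haQ hbQ hq).mpr (by rw [eq_comm, p01, eq_comm])
          · exact (S.comm_mul hcQ hdQ hq).mpr (by rw [eq_comm, p23, eq_comm])
      let p1 : Bool := decide (¬ q * a = a * q)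
      let p2 : Bool := decide (¬ q * c = c * q)
      have hmatch : ∀ i, q * X (s i) = X (s i) * q ↔
          (φ (p1, p2, false)).1 * X (s i) = X (s i) * (φ (p1, p2, false)).1 := by
        intro i
        rw [hbit]
        simp only [p1, p2, decide_eq_true_eq]
        rcases (show i = 0 ∨ i = 1 ∨ i = 2 ∨ i = 3 ∨ i = 4 by omega) with rfl | rfl | rfl | rfl | rfl
        · simp [ha]
        · rw [← hb', ← p01]; by_cases hh : q * a = a * q <;> simp [hh] <;> exact hh
        · simp [hc]
        · rw [← hd', ← p23]; by_cases hh : q * c = c * q <;> simp [hh] <;> exact hh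
        · simpa using h4
      rcases hsamemod q hq _ (φ (p1, p2, false)).2.1 hmatch with h | h
      · exact ⟨(p1, p2, false), h.symm⟩
      · refine ⟨(p1, p2, true), ?_⟩
        show (φ (p1, p2, true)).1 = q
        rw [h]
        simp [φ]
    refine ⟨(Nat.card_eq_of_bijective φ ⟨?_, ?_⟩).symm.trans (by simp [Nat.card_eq_fintype_card]), hsurj⟩
    · rintro ⟨p1, p2, p3⟩ ⟨q1, q2, q3⟩ h
      have e0 := (hbit (p1, p2, p3) 0).symm.trans ((by rw [h] : _ ↔ _).trans (hbit (q1, q2, q3) 0))
      have e2 := (hbit (p1, p2, p3) 2).symm.trans ((by rw [h] : _ ↔ _).trans (hbit (q1, q2, q3) 2))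
      simp at e0 e2
      have hp1 : p1 = q1 := Bool.eq_iff_iff.mpr (by cases p1 <;> cases q1 <;> simp at e0 ⊢)
      have hp2 : p2 = q2 := Bool.eq_iff_iff.mpr (by cases p2 <;> cases q2 <;> simp at e2 ⊢)
      subst hp1 hp2
      have h' := congrArg Subtype.val h
      simp only [φ] at h'
      have := mul_left_cancel h'
      cases p3 <;> cases q3 <;> simp at this ⊢
      · exact S.z1 this.symm
      · exact S.z1 this
    · rintro ⟨q, hq, hqi⟩
      obtain ⟨p, hp⟩ := hsurj q hq (Or.inl ((hinv_iff q).mp hqi))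
      exact ⟨p, Subtype.ext hp⟩
  obtain ⟨hTcard, hcover⟩ := hT
  -- the good partners
  have hgood : ∀ q ∈ Q, k * q * (k * q) = 1 → ∀ x : G,
      ((x ∈ Q ∧ x * x = 1 ∧ x ≠ 1) ∧ z ∈ Subgroup.zpowers (x * (k * q))) ↔
        ((x ∈ Q ∧ x * x = 1 ∧ x ≠ 1 ∧ x ≠ z) ∧ ¬ (x = w ∨ x = w * z)) := by
    intro q hq hqi x
    have hqk := (hinv_iff q).mp hqi
    have hno : x ∈ Q → x * x = 1 → Commute x (k * q) → z ∉ Subgroup.zpowers (x * (k * q)) := by
      intro hx hx2 hcm hz
      obtain ⟨n, hn⟩ := Subgroup.mem_zpowers_iff.mp hz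
      have h2 : (x * (k * q)) ^ (2 : ℤ) = 1 := by
        rw [zpow_two, hcm.symm.mul_mul_mul_comm, hx2, hqi, one_mul]
      rcases Int.even_or_odd n with ⟨m, rfl⟩ | ⟨m, rfl⟩
      · rw [← two_mul, zpow_mul, h2, one_zpow] at hn; exact S.z1 hn.symm
      · rw [zpow_add, zpow_mul, h2, one_zpow, one_mul, zpow_one] at hn
        refine hkQ ?_
        have : k = x⁻¹ * z * q⁻¹ := by rw [← hn]; group
        rw [this]
        exact mul_mem (mul_mem (inv_mem hx) S.zQ) (inv_mem hq)
    have hqw : Commute q w := by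
      have hpat : ∀ p : T, (p : G) * X (s 4) = X (s 4) * (p : G) := by
        intro p
        obtain ⟨hp, hpi⟩ := p.2
        have hpk := (hinv_iff _).mp hpi
        refine ((hcl (j := s 4) hWw hp).mp ?_).symm
        have hpair : ∀ {g g' : G}, k * g * k⁻¹ = g' → ((p : G) * g = g * p ↔ (p : G) * g' = g' * p) := by
          intro g g' hgg
          rw [← S.conj_comm hk (a := (p : G)) (b := g), hgg, hpk]
          exact ⟨fun h => (Commute.inv_left_iff.mp h).eq, fun h => (Commute.inv_left h).eq⟩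
        refine (S.comm_mul (mul_mem haQ hbQ) (mul_mem hcQ hdQ) hp).mpr (iff_of_true ?_ ?_)
        · exact (S.comm_mul haQ hbQ hp).mpr (by rw [eq_comm, hpair hb.symm, eq_comm])
        · exact (S.comm_mul hcQ hdQ hp).mpr (by rw [eq_comm, hpair hd.symm, eq_comm])
      exact hpat ⟨q, hq, hqi⟩
    have hyw : Commute (k * q) w := by
      have hkwc : Commute k w := mul_inv_eq_iff_eq_mul.mp hkw
      exact hkwc.mul_left hqw
    have hyz : Commute (k * q) z := (show Commute k z from S.zK k hk).mul_left (S.zc q hq)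
    constructor
    · rintro ⟨⟨hx, hx2, hx1⟩, hz⟩
      refine ⟨⟨hx, hx2, hx1, ?_⟩, ?_⟩
      · rintro rfl; exact hno hx hx2 hyz.symm hz
      · rintro (rfl | rfl)
        · exact hno hx hx2 hyw.symm hz
        · exact hno hx hx2 (hyw.symm.mul_left hyz.symm) hz
    · rintro ⟨⟨hx, hx2, hx1, hxz⟩, hxw⟩
      refine ⟨⟨hx, hx2, hx1⟩, ?_⟩
      obtain ⟨i, hi⟩ := hcov x ⟨hx, hx2, hx1, hxz⟩
      set j := τ ⟨k, hk⟩ i with hj
      have hji : j ≠ i := by
        intro h
        apply hxw
        obtain ⟨m, rfl⟩ := s.surjective i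
        fin_cases m
        · exact absurd (s.injective (hs01.symm.trans h)) (by decide)
        · have e1 : τ ⟨k, hk⟩ (τ ⟨k, hk⟩ (s 0)) = s 0 := by
            rw [← Equiv.Perm.mul_apply, ← map_mul, show (⟨k, hk⟩ : ↥K) * ⟨k, hk⟩ = 1 from Subtype.ext hk2,
              map_one, Equiv.Perm.one_apply]
          rw [hs01] at e1
          exact absurd (s.injective (e1.symm.trans h)) (by decide)
        · exact absurd (s.injective (hs23.symm.trans h)) (by decide)
        · have e1 : τ ⟨k, hk⟩ (τ ⟨k, hk⟩ (s 2)) = s 2 := by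
            rw [← Equiv.Perm.mul_apply, ← map_mul, show (⟨k, hk⟩ : ↥K) * ⟨k, hk⟩ = 1 from Subtype.ext hk2,
              map_one, Equiv.Perm.one_apply]
          rw [hs23] at e1
          exact absurd (s.injective (e1.symm.trans h)) (by decide)
        · exact hi
      set y := k * q with hy
      have hx' : y * x * y⁻¹ = X j ∨ y * x * y⁻¹ = X j * z := by
        have e1 : q * x * q⁻¹ = x ∨ q * x * q⁻¹ = x * z := by
          rcases S.com q hq x hx with h | h
          · left; rw [h, mul_inv_cancel_right]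
          · right
            rw [h, show x * q * z * q⁻¹ = x * (q * z) * q⁻¹ by group, S.zc q hq]
            group
        have e2 : ∀ u : G, k * (u * z) * k⁻¹ = k * u * k⁻¹ * z := by
          intro u
          rw [show k * (u * z) * k⁻¹ = k * u * k⁻¹ * (k * z * k⁻¹) by group, hkz]
        have e3 : k * x * k⁻¹ = X j ∨ k * x * k⁻¹ = X j * z := by
          rcases hi with rfl | rfl
          · exact hτ ⟨k, hk⟩ i
          · rw [e2]
            rcases hτ ⟨k, hk⟩ i with h | h <;> rw [show k * X i * k⁻¹ = _ from h]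
            · exact Or.inr rfl
            · exact Or.inl (S.zz _)
        rw [show y * x * y⁻¹ = k * (q * x * q⁻¹) * k⁻¹ by rw [hy]; group]
        rcases e1 with h | h <;> rw [h]
        · exact e3
        · rw [e2]
          rcases e3 with h' | h' <;> rw [h']
          · exact Or.inr rfl
          · exact Or.inl (S.zz _)
      set x' := y * x * y⁻¹ with hx'def
      have hx'Q : x' ∈ Q := by
        rcases hx' with h | h <;> rw [h]
        · exact (hX j).1
        · exact mul_mem (hX j).1 S.zQ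
      have hncx : x * x' = x' * x * z := by
        rcases S.com x hx x' hx'Q with h | h
        · exfalso
          rw [eq_comm, hcl hx' hx] at h
          have h' : X i * X j = X j * X i := by
            rw [eq_comm, hcl hi (hX j).1] at h
            exact h
          exact hji ((hXc i j).mp h').symm
        · exact h
      have hx'2 : x' * x' = 1 := by
        rw [hx'def, show y * x * y⁻¹ * (y * x * y⁻¹) = y * (x * x) * y⁻¹ by group, hx2, mul_one, mul_inv_cancel]
      have hy2 : y * y = 1 := hqi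
      have hyinv : y⁻¹ = y := inv_eq_of_mul_eq_one_left hy2
      have h4 : (x * y) ^ 4 = z := by
        calc (x * y) ^ 4 = x * (y * x * y) * (x * (y * x * y)) := by simp [pow_succ, mul_assoc]
          _ = x * x' * (x * x') := by rw [hx'def, hyinv]
          _ = x' * x * z * (x * x') := by rw [← hncx]
          _ = x' * x * (z * x) * x' := by group
          _ = x' * (x * x) * (z * x') := by rw [S.comm_z hx]; group
          _ = x' * x' * z := by rw [hx2, S.comm_z hx'Q]; group
          _ = z := by rw [hx'2, one_mul]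
      exact ⟨4, by rw [← h4]; simp⟩
  have hgcard : Nat.card {x : G // (x ∈ Q ∧ x * x = 1 ∧ x ≠ 1 ∧ x ≠ z) ∧ ¬ (x = w ∨ x = w * z)} = 8 := by
    let φ : Fin 4 × Bool → {x : G // (x ∈ Q ∧ x * x = 1 ∧ x ≠ 1 ∧ x ≠ z) ∧ ¬ (x = w ∨ x = w * z)} := fun p =>
      ⟨if p.2 then X (s p.1.castSucc) * z else X (s p.1.castSucc), by
        refine ⟨by split_ifs <;> [exact S.mul_z_mem (hX _); exact hX _], fun h => ?_⟩
        have h1 : s p.1.castSucc = s 4 := by
          refine huniq _ _ _ ?_ h
          split_ifs <;> [exact Or.inr rfl; exact Or.inl rfl]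
        exact absurd (s.injective h1) (Fin.castSucc_ne_last p.1)⟩
    refine (Nat.card_eq_of_bijective φ ⟨?_, ?_⟩).symm.trans (by simp [Nat.card_eq_fintype_card])
    · rintro ⟨i, u⟩ ⟨j, v⟩ h
      have h' := congrArg Subtype.val h
      simp only [φ] at h'
      have hij : i = j := Fin.castSucc_injective _ (s.injective (huniq (if u then X (s i.castSucc) * z else X (s i.castSucc)) _ _
        (by split_ifs <;> [exact Or.inr rfl; exact Or.inl rfl])
        (by rw [h']; split_ifs <;> [exact Or.inr rfl; exact Or.inl rfl])))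
      subst hij
      cases u <;> cases v <;> simp only [Bool.false_eq_true, if_false, if_true] at h'
      · rfl
      · exact absurd h'.symm (S.mul_z_ne _)
      · exact absurd h' (S.mul_z_ne _)
      · rfl
    · rintro ⟨x, hx, hxw⟩
      obtain ⟨i, hi⟩ := hcov x hx
      obtain ⟨m, rfl⟩ := s.surjective i
      obtain ⟨m', rfl⟩ : ∃ m' : Fin 4, m'.castSucc = m := Fin.exists_castSucc_eq.mpr (by
        rintro rfl; exact hxw hi)
      rcases hi with rfl | rfl
      · exact ⟨(m', false), Subtype.ext rfl⟩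
      · exact ⟨(m', true), Subtype.ext rfl⟩
  have hequiv : {p : G × G // p.1 ∈ Q ∧ k * p.1 * (k * p.1) = 1 ∧
      (p.2 ∈ Q ∧ p.2 * p.2 = 1 ∧ p.2 ≠ 1) ∧ z ∈ Subgroup.zpowers (p.2 * (k * p.1))} ≃
      T × {x : G // (x ∈ Q ∧ x * x = 1 ∧ x ≠ 1 ∧ x ≠ z) ∧ ¬ (x = w ∨ x = w * z)} :=
    { toFun := fun p => (⟨p.1.1, p.2.1, p.2.2.1⟩, ⟨p.1.2, (hgood _ p.2.1 p.2.2.1 _).mp p.2.2.2⟩)
      invFun := fun p => ⟨(p.1.1, p.2.1), p.1.2.1, p.1.2.2, (hgood _ p.1.2.1 p.1.2.2 _).mpr p.2.2⟩
      left_inv := fun _ => rfl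
      right_inv := fun _ => rfl }
  -- the centralizer of `k` in `Q`
  have hfix : ∀ q ∈ Q, k * q = q * k ↔ q = 1 ∨ q = z ∨ q = w ∨ q = w * z := by
    intro q hq
    constructor
    · intro hc
      obtain ⟨⟨p1, p2, p3⟩, hp⟩ := hcover q hq (Or.inr (by rw [hc, mul_inv_cancel_right]))
      have hA : k * (a * b) ≠ a * b * k := fun h => S.mul_z_ne (a * b) (by
        rw [← hba, ← hkab, h, mul_inv_cancel_right])
      have hB : k * (c * d) ≠ c * d * k := fun h => S.mul_z_ne (c * d) (by
        rw [← hdc, ← hkcd, h, mul_inv_cancel_right])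
      have hkzc : Commute k z := S.zK k hk
      have hy : Commute k (if p3 then z else 1) := by
        cases p3
        · exact Commute.one_right k
        · exact hkzc
      have hc' : Commute k ((if p1 then a * b else 1) * (if p2 then c * d else 1)) := by
        have h1 : Commute k ((if p1 then a * b else 1) * (if p2 then c * d else 1) * (if p3 then z else 1)) := by
          rw [show (if p1 then a * b else 1) * (if p2 then c * d else 1) * (if p3 then z else 1) = q from hp]
          exact hc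
        have h2 := h1.mul_right hy.inv_right
        rwa [mul_inv_cancel_right] at h2
      cases p1 <;> cases p2 <;> simp only [Bool.false_eq_true, if_false, if_true, one_mul, mul_one] at hc' hp
      · cases p3 <;> simp at hp <;> simp [← hp]
      · exact absurd hc' hB
      · exact absurd hc' hA
      · rcases hWw with h | h <;> cases p3 <;> simp only [Bool.false_eq_true, if_false, if_true, mul_one] at hp <;>
          rw [← hp, h] <;> simp [S.zz]
    · have hkzc : Commute k z := S.zK k hk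
      have hkwc : Commute k w := mul_inv_eq_iff_eq_mul.mp hkw
      rintro (rfl | rfl | rfl | rfl)
      · exact Commute.one_right k
      · exact hkzc
      · exact hkwc
      · exact hkwc.mul_right hkzc
  -- elements commuting with `k` commute with `w`
  have hcentral : ∀ g ∈ K, g * k = k * g → g * w = w * g := by
    intro g hg hgk
    have hμ : ∀ i, τ ⟨k, hk⟩ (s i) = s ((Equiv.swap (0 : Fin 5) 1 * Equiv.swap 2 3 : Equiv.Perm (Fin 5)) i) := by
      have h1 : ∀ i, τ ⟨k, hk⟩ (τ ⟨k, hk⟩ i) = i := fun i => by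
        rw [← Equiv.Perm.mul_apply, ← map_mul, show (⟨k, hk⟩ : ↥K) * ⟨k, hk⟩ = 1 from Subtype.ext hk2, map_one,
          Equiv.Perm.one_apply]
      intro i
      rcases (show i = 0 ∨ i = 1 ∨ i = 2 ∨ i = 3 ∨ i = 4 by omega) with rfl | rfl | rfl | rfl | rfl
      · rw [hs01]; congr 1
      · rw [← hs01, h1]; congr 1
      · rw [hs23]; congr 1
      · rw [← hs23, h1]; congr 1
      · rw [hs4]; congr 1
    have hcom : ∀ i, τ ⟨g, hg⟩ (τ ⟨k, hk⟩ i) = τ ⟨k, hk⟩ (τ ⟨g, hg⟩ i) := fun i => by
      rw [← Equiv.Perm.mul_apply, ← Equiv.Perm.mul_apply, ← map_mul, ← map_mul,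
        show (⟨g, hg⟩ : ↥K) * ⟨k, hk⟩ = ⟨k, hk⟩ * ⟨g, hg⟩ from Subtype.ext hgk]
    set ρ : Equiv.Perm (Fin 5) := s⁻¹ * τ ⟨g, hg⟩ * s with hρ
    have hρs : ∀ i, τ ⟨g, hg⟩ (s i) = s (ρ i) := fun i => by simp [hρ]
    have hρμ : ρ * (Equiv.swap 0 1 * Equiv.swap 2 3) = Equiv.swap 0 1 * Equiv.swap 2 3 * ρ := by
      refine Equiv.ext fun i => s.injective ?_
      rw [Equiv.Perm.mul_apply, Equiv.Perm.mul_apply (Equiv.swap 0 1 * Equiv.swap 2 3), ← hρs, ← hμ, ← hμ, ← hρs,
        hcom]
    have hρsign : Equiv.Perm.sign ρ = 1 := by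
      rw [hρ, map_mul, map_mul, map_inv, hsignall, mul_one, inv_mul_cancel]
    have hinQ : ∀ q ∈ Q, k * q = q * k → q * w = w * q := by
      intro q hq hqc
      rcases (hfix q hq).mp hqc with rfl | rfl | rfl | rfl
      · simp
      · exact S.comm_z hwQ
      · rfl
      · exact (S.comm_mul_z hwQ hwQ).mpr rfl
    rcases centralizer_double_transposition ρ hρμ hρsign with h | h | ⟨h0, h2⟩ | ⟨h0, h2⟩
    · refine hinQ g ((hker ⟨g, hg⟩).mp ?_) hgk.symm
      refine Equiv.ext fun i => ?_
      obtain ⟨m, rfl⟩ := s.surjective i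
      rw [hρs, h]; rfl
    · have hkgQ : k⁻¹ * g ∈ Q := (hker (⟨k, hk⟩⁻¹ * ⟨g, hg⟩)).mp (by
        have : τ ⟨g, hg⟩ = τ ⟨k, hk⟩ := Equiv.ext fun i => by
          obtain ⟨m, rfl⟩ := s.surjective i
          rw [hρs, h, hμ]
        rw [map_mul, map_inv, this, inv_mul_cancel])
      have hc1 : k * (k⁻¹ * g) = k⁻¹ * g * k := by
        rw [mul_inv_cancel_left, mul_assoc, hgk, inv_mul_cancel_left]
      have h1 : Commute (k⁻¹ * g) w := hinQ _ hkgQ hc1
      have h2 : Commute k w := mul_inv_eq_iff_eq_mul.mp hkw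
      have h3 := h2.mul_left h1
      rwa [mul_inv_cancel_left] at h3
    all_goals
      have hgz : ∀ u, g * (u * z) * g⁻¹ = g * u * g⁻¹ * z := fun u => by
        rw [show g * (u * z) * g⁻¹ = g * u * g⁻¹ * (g * z * g⁻¹) by group, S.zK g hg, mul_inv_cancel_right]
      have hkc' : ∀ u, g * (k * u * k⁻¹) * g⁻¹ = k * (g * u * g⁻¹) * k⁻¹ := fun u => by
        calc g * (k * u * k⁻¹) * g⁻¹ = g * k * u * (g * k)⁻¹ := by group
          _ = _ := by rw [hgk]; group
      have hkz' : ∀ u, k * (u * z) * k⁻¹ = k * u * k⁻¹ * z := fun u => by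
        rw [show k * (u * z) * k⁻¹ = k * u * k⁻¹ * (k * z * k⁻¹) by group, hkz]
      have hpair : ∀ {u u' v v' : G}, v' ∈ Q → (g * u * g⁻¹ = v ∨ g * u * g⁻¹ = v * z) → u' = k * u * k⁻¹ →
          k * v * k⁻¹ = v' → g * (u * u') * g⁻¹ = v * v' := by
        intro u u' v v' hv' hu hu' hv
        rw [show g * (u * u') * g⁻¹ = g * u * g⁻¹ * (g * u' * g⁻¹) by group, hu', hkc']
        rcases hu with hu | hu <;> rw [hu]
        · rw [hv]
        · rw [hkz', hv]
          calc v * z * (v' * z) = v * (z * v') * z := by group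
            _ = v * v' := by rw [S.comm_z hv', ← mul_assoc v v' z, S.zz]
      have hga := hτ ⟨g, hg⟩ (s 0)
      have hgc := hτ ⟨g, hg⟩ (s 2)
      rw [hρs, h0] at hga
      rw [hρs, h2] at hgc
    · have hABimg : g * (a * b) * g⁻¹ = c * d := hpair hdQ hga hb hd.symm
      have hCDimg : g * (c * d) * g⁻¹ = a * b := hpair hbQ hgc hd hb.symm
      have hWimg : g * (a * b * (c * d)) * g⁻¹ = a * b * (c * d) := by
        rw [show g * (a * b * (c * d)) * g⁻¹ = g * (a * b) * g⁻¹ * (g * (c * d) * g⁻¹) by group, hABimg, hCDimg,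
          hAB.eq]
      refine mul_inv_eq_iff_eq_mul.mp ?_
      rcases hWw with h | h
      · rw [← h, hWimg]
      · have h' : w = a * b * (c * d) * z := by rw [h, S.zz]
        rw [h', hgz, hWimg]
    · have hga' : g * a * g⁻¹ = d ∨ g * a * g⁻¹ = d * z := by
        rcases hdX with e | e <;> rcases hga with e' | e' <;> rw [show g * a * g⁻¹ = _ from e']
        · exact Or.inl e.symm
        · exact Or.inr (by rw [e])
        · exact Or.inr (by rw [e, S.zz])
        · exact Or.inl e.symm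
      have hgc' : g * c * g⁻¹ = b ∨ g * c * g⁻¹ = b * z := by
        rcases hbX with e | e <;> rcases hgc with e' | e' <;> rw [show g * c * g⁻¹ = _ from e']
        · exact Or.inl e.symm
        · exact Or.inr (by rw [e])
        · exact Or.inr (by rw [e, S.zz])
        · exact Or.inl e.symm
      have hABimg : g * (a * b) * g⁻¹ = d * c := hpair hcQ hga' hb hkd
      have hCDimg : g * (c * d) * g⁻¹ = b * a := hpair haQ hgc' hd hkb
      have hWimg : g * (a * b * (c * d)) * g⁻¹ = a * b * (c * d) := by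
        rw [show g * (a * b * (c * d)) * g⁻¹ = g * (a * b) * g⁻¹ * (g * (c * d) * g⁻¹) by group, hABimg, hCDimg,
          hdc, hba]
        calc c * d * z * (a * b * z) = c * d * (z * (a * b)) * z := by group
          _ = c * d * (a * b) := by
            rw [(hzc' _ (mul_mem haQ hbQ)).eq, ← mul_assoc (c * d) (a * b) z, S.zz]
          _ = a * b * (c * d) := hAB.eq.symm
      refine mul_inv_eq_iff_eq_mul.mp ?_
      rcases hWw with h | h
      · rw [← h, hWimg]
      · have h' : w = a * b * (c * d) * z := by rw [h, S.zz]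
        rw [h', hgz, hWimg]
  refine ⟨w, hX (s 4), hfix, hcentral, hTcard, ?_⟩
  rw [Nat.card_congr hequiv, Nat.card_prod, hTcard, hgcard]

end Setup

end Cfsg.Agent.Lib.JTwoPattern
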